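import Mathlib
import Cfsg.Agent.S2505

set_option autoImplicit false

/-! Project AB (S2506): abelian subgroups of largest order of alternating groups are
conjugate. This file only states the package lemmas as `Prop`s. -/

namespace Cfsg.Agent.Lib.Helper73.AB

open Equiv
open scoped Pointwise

/-- The largest order of an abelian subgroup of the alternating group of degree `n`. -/
def fmax : ℕ → ℕ
  | 0 => 1
  | 1 => 1
  | 2 => 1
  | 3 => 3
  | 4 => 4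
  | 5 => 5
  | 6 => 9
  | 7 => 12
  | 8 => 16
  | (n + 9) => 3 * fmax (n + 6)

/-- `A` is an abelian subgroup of `Alt(Ω)` of largest order. -/
def IsMaxAb {Ω : Type} [Fintype Ω] [DecidableEq Ω] (A : Subgroup (Perm Ω)) : Prop :=
  A ≤ alternatingGroup Ω ∧ (∀ x ∈ A, ∀ y ∈ A, x * y = y * x) ∧
    ∀ C : Subgroup (Perm Ω), C ≤ alternatingGroup Ω → (∀ x ∈ C, ∀ y ∈ C, x * y = y * x) →
      Nat.card C ≤ Nat.card A

/-- `g` acts on `O` trivially, or without fixed points (and as an involution when `O` has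
4 points). -/
def CanOn {Ω : Type} (g : Perm Ω) (O : Finset Ω) : Prop :=
  (∀ x ∈ O, g x = x) ∨ ((∀ x ∈ O, g x ≠ x) ∧ (O.card = 4 → ∀ x ∈ O, g (g x) = x))

/-- Package NUM: the numerical lemma on `fmax`. -/
def LemAbNum : Prop :=
  ∀ m n κ : ℕ, 1 ≤ m → m ≤ n → 3 ≤ n → κ ≤ m → (m % 4 = 2 → 2 * κ ≤ m) →
    fmax n ≤ κ * fmax (n - m) →
    κ = m ∧ fmax n = m * fmax (n - m) ∧
      ((m = 3 ∧ n ≠ 4 ∧ n ≠ 5 ∧ n ≠ 8) ∨ (m = 4 ∧ (n = 4 ∨ (7 ≤ n ∧ n % 3 ≠ 0))) ∨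
        (m = 5 ∧ n = 5))

/-- Package NUMG: half the symmetric bound is below the alternating bound. -/
def LemAbNumG : Prop :=
  ∀ n : ℕ, 3 ≤ n → Cfsg.Agent.S2505.gmax n < 2 * fmax n

/-- Package EXIST: an abelian subgroup of `Alt(Ω)` of order `fmax`. -/
def LemAbExist : Prop :=
  ∀ (Ω : Type) [Fintype Ω] [DecidableEq Ω], ∃ C : Subgroup (Perm Ω),
    C ≤ alternatingGroup Ω ∧ (∀ x ∈ C, ∀ y ∈ C, x * y = y * x) ∧
      Nat.card C = fmax (Fintype.card Ω)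

/-- Package BOUND: abelian subgroups of `Alt(Ω)` have order at most `fmax`. -/
def LemAbBound : Prop :=
  ∀ (Ω : Type) [Fintype Ω] [DecidableEq Ω] (A : Subgroup (Perm Ω)),
    A ≤ alternatingGroup Ω → (∀ x ∈ A, ∀ y ∈ A, x * y = y * x) →
    Nat.card A ≤ fmax (Fintype.card Ω)

/-- Package ORB: the structure of a largest abelian subgroup at one orbit. -/
def LemAbOrb : Prop :=
  ∀ (Ω : Type) [Fintype Ω] [DecidableEq Ω] (A : Subgroup (Perm Ω)) (a : Ω) (O : Finset Ω),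
    IsMaxAb A → 3 ≤ Fintype.card Ω → Fintype.card Ω ≠ 5 →
    (∀ x, x ∈ O ↔ ∃ g ∈ A, g a = x) →
    (O.card = 3 ∨ O.card = 4) ∧ (Fintype.card Ω % 3 = 0 → O.card = 3) ∧
    IsMaxAb (A.comap (Perm.ofSubtype : Perm {x // x ∉ O} →* Perm Ω)) ∧
    (∀ g : Perm Ω, (∀ x, x ∉ O → g x = x) → (g ∈ A ↔ CanOn g O)) ∧
    (∀ g ∈ A, ∃ c ∈ A, (∀ x, x ∉ O → c x = x) ∧ ∀ x ∈ O, c x = g x)

/-- Package CONJ: largest abelian subgroups of `Alt(Ω)` are conjugate in `Sym(Ω)`. -/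
def LemAbConj : Prop :=
  ∀ (Ω : Type) [Fintype Ω] [DecidableEq Ω] (A B : Subgroup (Perm Ω)),
    IsMaxAb A → IsMaxAb B → ∃ σ : Perm Ω, B = A.map (MulAut.conj σ).toMonoidHom

/-- Package PAR: a largest abelian subgroup is normalized by an odd permutation. -/
def LemAbPar : Prop :=
  ∀ (Ω : Type) [Fintype Ω] [DecidableEq Ω] (A : Subgroup (Perm Ω)),
    IsMaxAb A → 3 ≤ Fintype.card Ω → Fintype.card Ω ≠ 5 →
    ∃ τ : Perm Ω, Perm.sign τ = -1 ∧ A.map (MulAut.conj τ).toMonoidHom = A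

/-- The statement of S2506. -/
def S2506Stmt : Prop :=
  ∀ (n : ℕ) (A B : Subgroup (alternatingGroup (Fin n))) (_ : IsMulCommutative A)
    (_ : IsMulCommutative B)
    (_ : ∀ C : Subgroup (alternatingGroup (Fin n)), IsMulCommutative C →
      Nat.card C ≤ Nat.card A)
    (_ : ∀ C : Subgroup (alternatingGroup (Fin n)), IsMulCommutative C →
      Nat.card C ≤ Nat.card B),
    ∃ g : alternatingGroup (Fin n), B = MulAut.conj g • A

end Cfsg.Agent.Lib.Helper73.AB
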