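import Mathlib
import Cfsg.Agent.Lib.Helper73.AB.Defs
import Cfsg.Agent.Lib.Helper15.AB.LemAbNum
import Cfsg.Agent.Lib.Helper15.AB.LemAbBound
import Cfsg.Agent.Lib.Helper22.AB.Exist
import Cfsg.Agent.Lib.Helper22.AB.Final
import Cfsg.Agent.Lib.Helper27.AB.LemAbOrb
import Cfsg.Agent.Lib.Helper63.AB.Conj
import Cfsg.Agent.Lib.Helper63.AB.Par

set_option autoImplicit false

/-! Project AB (S2506): assembly of the packages. -/

namespace Cfsg.Agent.Lib.Helper73.AB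

theorem lemAbOrb : LemAbOrb :=
  Cfsg.Agent.Lib.Helper27.AB.lemAbOrb_of Cfsg.Agent.Lib.Helper22.AB.lemAbExist
    Cfsg.Agent.Lib.Helper15.AB.lemAbBound Cfsg.Agent.Lib.Helper15.AB.lemAbNum
    Cfsg.Agent.Lib.Helper15.AB.lemAbNumG

theorem s2506 : S2506Stmt :=
  Cfsg.Agent.Lib.Helper22.AB.s2506_of Cfsg.Agent.Lib.Helper22.AB.lemAbExist
    Cfsg.Agent.Lib.Helper15.AB.lemAbBound
    (Cfsg.Agent.Lib.Helper63.AB.lemAbConj_of Cfsg.Agent.Lib.Helper22.AB.lemAbExist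
      Cfsg.Agent.Lib.Helper15.AB.lemAbBound lemAbOrb)
    (Cfsg.Agent.Lib.Helper63.AB.lemAbPar_of lemAbOrb)

end Cfsg.Agent.Lib.Helper73.AB
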